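import Mathlib
import Cfsg.Agent.Lib.Helper82.S4415.MonDefs

/-!
# S4415 [MON]: basic lemmas on signed permutation data `SP σ ε` (helper73)
-/

set_option autoImplicit false

namespace Cfsg.Agent.Lib.Helper73.S4415

open Cfsg.Agent.Lib.Helper82.S4415

universe u w

theorem z3_neg_one_ne_one : (-1 : ZMod 3) ≠ 1 := by decide

theorem z3_sq_of_sign {a : ZMod 3} (h : a = 1 ∨ a = -1) : a * a = 1 := by
  rcases h with rfl | rfl <;> decide

theorem z3_eq_of_mul_eq_one {a c : ZMod 3} (ha : a = 1 ∨ a = -1) (hc : c = 1 ∨ c = -1)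
    (h : a * c = 1) : a = c := by
  rcases ha with rfl | rfl <;> rcases hc with rfl | rfl <;> revert h <;> decide

section

variable {G : Type u} [Group G] {ι : Type w} {σ : G →* Equiv.Perm ι} {ε : G → ι → ZMod 3}

theorem sp_one (h : SP σ ε) (i : ι) : ε 1 i = 1 := by
  have h1 := h.2.1 1 1 i
  simp only [mul_one, map_one, Equiv.Perm.coe_one, id_eq] at h1
  rcases h.1 1 i with h2 | h2
  · exact h2
  · rw [h2] at h1
    exact absurd h1 (by decide)

theorem sp_sq (h : SP σ ε) (g : G) (i : ι) : ε g i * ε g i = 1 := z3_sq_of_sign (h.1 g i)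

/-- `ε g i * ε g⁻¹ (σ g i) = 1`. -/
theorem sp_inv_mul (h : SP σ ε) (g : G) (i : ι) : ε g i * ε g⁻¹ (σ g i) = 1 := by
  have h1 := h.2.1 g⁻¹ g i
  rw [inv_mul_cancel, sp_one h] at h1
  exact h1.symm

/-- Extensionality: equal permutation and equal signs force equality. -/
theorem sp_ext (h : SP σ ε) {g k : G} (hσ : σ g = σ k) (hε : ∀ i, ε g i = ε k i) : g = k := by
  have h1 : g⁻¹ * k = 1 := by
    apply h.2.2
    · rw [map_mul, map_inv, hσ, inv_mul_cancel]
    · intro i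
      rw [h.2.1 g⁻¹ k i, ← hσ, ← hε i]
      exact sp_inv_mul h g i
  have := congrArg (fun t => g * t) h1
  simpa using this.symm

/-- Conjugation formula: if `σ x = 1` then `ε (g⁻¹ * x * g) i = ε x (σ g i)`. -/
theorem sp_conj (h : SP σ ε) (g x : G) (hx : σ x = 1) (i : ι) :
    ε (g⁻¹ * x * g) i = ε x (σ g i) := by
  rw [h.2.1 (g⁻¹ * x) g i, h.2.1 g⁻¹ x (σ g i), hx]
  simp only [Equiv.Perm.coe_one, id_eq]
  have h2 := sp_inv_mul h g i
  calc ε g i * (ε x (σ g i) * ε g⁻¹ (σ g i))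
      = ε x (σ g i) * (ε g i * ε g⁻¹ (σ g i)) := by ring
    _ = ε x (σ g i) := by rw [h2, mul_one]

theorem sp_conj_sigma (g x : G) (hx : σ x = 1) : σ (g⁻¹ * x * g) = 1 := by
  rw [map_mul, map_mul, hx, map_inv]
  simp

end

end Cfsg.Agent.Lib.Helper73.S4415
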