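import Mathlib
import Cfsg.Agent.Lib.Helper82.S4415.MonDefs
import Cfsg.Agent.Lib.Helper73.S4415.SPBasic

/-!
# S4415 [MON-4CEN]: in degree 4, the centre of `R` is `{1, z}` (helper73)
-/

set_option autoImplicit false

namespace Cfsg.Agent.Lib.Helper73.S4415

open Cfsg.Agent.Lib.Helper82.S4415

universe u

theorem fin4_third : ∀ a c : Fin 4, ∃ j : Fin 4, j ≠ a ∧ j ≠ c := by decide

theorem even_pair : ∀ a j : Fin 4, a ≠ j →
    ∏ k : Fin 4, (if k = a ∨ k = j then (-1 : ZMod 3) else 1) = 1 := by decide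

/-- cancellation of a sign on the left -/
theorem z3_cancel_left {a c e : ZMod 3} (ha : a = 1 ∨ a = -1) (h : a * c = a * e) : c = e := by
  have h1 : a * (a * c) = a * (a * e) := by rw [h]
  rw [← mul_assoc, ← mul_assoc, z3_sq_of_sign ha, one_mul, one_mul] at h1
  exact h1

/-- [MON-4CEN] -/
theorem pkgMon4Cen : PkgMon4Cen.{u} := by
  intro G _ R σ ε z hsp hfpf htrans hsurj hσz hεz x hx hcen
  -- Step 1: `σ x = 1`
  have hσx : σ x = 1 := by
    rcases hfpf x hx with h1 | h1
    · exact h1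
    · exfalso
      obtain ⟨j, hj0, hjt⟩ := fin4_third 0 (σ x 0)
      have hev : EvenSign (fun k : Fin 4 => if k = 0 ∨ k = j then (-1 : ZMod 3) else 1) := by
        refine ⟨fun k => ?_, even_pair 0 j (Ne.symm hj0)⟩
        by_cases hk : k = 0 ∨ k = j
        · right; simp [hk]
        · left; simp [hk]
      obtain ⟨y, hy, hσy, hεy⟩ := hsurj _ hev
      have hc := hcen y hy
      have h2 : ε (x * y) 0 = ε (y * x) 0 := by rw [hc]
      rw [hsp.2.1 x y 0, hsp.2.1 y x 0, hσy, hεy 0, hεy (σ x 0)] at h2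
      simp only [Equiv.Perm.coe_one, id_eq, true_or, if_true] at h2
      have h3 : ¬ (σ x 0 = 0 ∨ σ x 0 = j) := by
        rintro (h | h)
        · exact (h1 0).1 h
        · exact hjt h.symm
      rw [if_neg h3] at h2
      -- h2 : -1 * ε x 0 = ε x 0 * 1
      rcases hsp.1 x 0 with h4 | h4 <;> rw [h4] at h2 <;> revert h2 <;> decide
  -- Step 2: `ε x` is constant
  have hconst : ∀ j, ε x j = ε x 0 := by
    intro j
    obtain ⟨r, hr, hrj⟩ := htrans 0 j
    have hc := hcen r hr
    have h2 : ε (x * r) 0 = ε (r * x) 0 := by rw [hc]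
    rw [hsp.2.1 x r 0, hsp.2.1 r x 0, hσx, hrj] at h2
    simp only [Equiv.Perm.coe_one, id_eq] at h2
    rw [mul_comm (ε x 0) (ε r 0)] at h2
    exact z3_cancel_left (hsp.1 r 0) h2
  rcases hsp.1 x 0 with h0 | h0
  · left
    apply sp_ext hsp
    · rw [hσx, map_one]
    · intro i
      rw [hconst i, h0, sp_one hsp]
  · right
    apply sp_ext hsp
    · rw [hσx, hσz]
    · intro i
      rw [hconst i, h0, hεz]

end Cfsg.Agent.Lib.Helper73.S4415
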