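import Mathlib
import Cfsg.Agent.Lib.Helper82.S4415.MonDefs
import Cfsg.Agent.Lib.Helper73.S4415.SPBasic

/-!
# S4415 [MON-4COMM]: in degree 4, commutators lie in `{1, z}` (helper73)
-/

set_option autoImplicit false

namespace Cfsg.Agent.Lib.Helper73.S4415

open Cfsg.Agent.Lib.Helper82.S4415

universe u

theorem fin4_cases : ∀ k : Fin 4, k = 0 ∨ k = 1 ∨ k = 2 ∨ k = 3 := by decide

theorem fpf_cases : ∀ p : Equiv.Perm (Fin 4), (∀ i, p i ≠ i ∧ p (p i) = i) →
    (p 0 = 1 ∧ p 1 = 0 ∧ p 2 = 3 ∧ p 3 = 2) ∨ (p 0 = 2 ∧ p 2 = 0 ∧ p 1 = 3 ∧ p 3 = 1) ∨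
      (p 0 = 3 ∧ p 3 = 0 ∧ p 1 = 2 ∧ p 2 = 1) := by decide

instance decOneOrFpf (n : ℕ) (p : Equiv.Perm (Fin n)) : Decidable (OneOrFpf p) := by
  unfold OneOrFpf; infer_instance

theorem fpf_comm : ∀ p q : Equiv.Perm (Fin 4), OneOrFpf p → OneOrFpf q → p * q = q * p := by
  decide

/-- For an even sign vector `d` and `p = 1` or a fixed-point-free involution, the product
`d i * d (p i)` does not depend on `i`. -/
theorem pair_const (p : Equiv.Perm (Fin 4)) (d : Fin 4 → ZMod 3) (hp : OneOrFpf p)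
    (hd : ∀ i, d i = 1 ∨ d i = -1) (hprod : ∏ i, d i = 1) (i j : Fin 4) :
    d i * d (p i) = d j * d (p j) := by
  rcases hp with rfl | hp
  · simp [z3_sq_of_sign (hd i), z3_sq_of_sign (hd j)]
  · rw [Fin.prod_univ_four] at hprod
    have h0 := hd 0
    have h1 := hd 1
    have h2 := hd 2
    have h3 := hd 3
    have hall : ∀ k : Fin 4, d k * d (p k) = d 0 * d (p 0) := by
      intro k
      rcases fpf_cases p hp with ⟨a, b, c, e⟩ | ⟨a, b, c, e⟩ | ⟨a, b, c, e⟩ <;>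
      rcases fin4_cases k with rfl | rfl | rfl | rfl <;>
      simp only [a, b, c, e] <;>
      rcases h0 with h0 | h0 <;> rcases h1 with h1 | h1 <;> rcases h2 with h2 | h2 <;>
      rcases h3 with h3 | h3 <;> rw [h0, h1, h2, h3] at hprod <;>
      simp only [h0, h1, h2, h3] <;> revert hprod <;> decide
    rw [hall i, hall j]

/-- [MON-4COMM] -/
theorem pkgMon4Comm : PkgMon4Comm.{u} := by
  intro G _ R σ ε z hsp hfpf hprod hσz hεz x hx y hy
  have hσ : σ (x * y) = σ (y * x) := by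
    rw [map_mul, map_mul]
    exact fpf_comm _ _ (hfpf x hx) (hfpf y hy)
  have hcx := pair_const (σ y) (ε x) (hfpf y hy) (hsp.1 x) (hprod x hx)
  have hcy := pair_const (σ x) (ε y) (hfpf x hx) (hsp.1 y) (hprod y hy)
  have hratio : ∀ i, ε (x * y) i * ε (y * x) i
      = (ε x 0 * ε x (σ y 0)) * (ε y 0 * ε y (σ x 0)) := by
    intro i
    rw [hsp.2.1 x y i, hsp.2.1 y x i, ← hcx i 0, ← hcy i 0]
    ring
  have htsign : (ε x 0 * ε x (σ y 0)) * (ε y 0 * ε y (σ x 0)) = 1 ∨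
      (ε x 0 * ε x (σ y 0)) * (ε y 0 * ε y (σ x 0)) = -1 := by
    rcases hsp.1 x 0 with h1 | h1 <;> rcases hsp.1 x (σ y 0) with h2 | h2 <;>
    rcases hsp.1 y 0 with h3 | h3 <;> rcases hsp.1 y (σ x 0) with h4 | h4 <;>
    rw [h1, h2, h3, h4] <;> decide
  rcases htsign with h1 | h1
  · left
    apply sp_ext hsp hσ
    intro i
    have h2 := hratio i
    rw [h1] at h2
    exact z3_eq_of_mul_eq_one (hsp.1 _ i) (hsp.1 _ i) h2
  · right
    have hσ' : σ (z * y * x) = σ (y * x) := by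
      rw [mul_assoc, map_mul, hσz, one_mul]
    apply sp_ext hsp (hσ.trans hσ'.symm)
    intro i
    have h2 := hratio i
    rw [h1] at h2
    have h3 : ε (z * y * x) i = ε (y * x) i * (-1) := by
      rw [mul_assoc, hsp.2.1 z (y * x) i, hεz]
    rw [h3]
    rcases hsp.1 (x * y) i with h4 | h4 <;> rcases hsp.1 (y * x) i with h5 | h5 <;>
    rw [h4, h5] at h2 ⊢ <;> revert h2 <;> decide

end Cfsg.Agent.Lib.Helper73.S4415
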