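import Mathlib
import Cfsg.Agent.Lib.Helper82.S4415.MonDefs
import Cfsg.Agent.Lib.Helper73.S4415.SPBasic

/-!
# S4415 [MON-4S]: in degree 4, `N` realizes every even sign vector (helper73)
-/

set_option autoImplicit false

namespace Cfsg.Agent.Lib.Helper73.S4415

open Cfsg.Agent.Lib.Helper82.S4415

universe u

theorem fin4_fourth : ∀ a c e : Fin 4, a ≠ c → c ≠ e → a ≠ e →
    ∃ f : Fin 4, f ≠ a ∧ f ≠ c ∧ f ≠ e ∧ ∀ j : Fin 4, j = a ∨ j = c ∨ j = e ∨ j = f := by decide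

theorem univ4 : ∀ a c e f : Fin 4, a ≠ c → c ≠ e → a ≠ e → f ≠ a → f ≠ c → f ≠ e →
    (Finset.univ : Finset (Fin 4)) = {a, c, e, f} := by decide

theorem prod4 (a c e f : Fin 4) (hac : a ≠ c) (hce : c ≠ e) (hae : a ≠ e) (hfa : f ≠ a)
    (hfc : f ≠ c) (hfe : f ≠ e) (u : Fin 4 → ZMod 3) : ∏ i, u i = u a * u c * u e * u f := by
  rw [univ4 a c e f hac hce hae hfa hfc hfe, Finset.prod_insert, Finset.prod_insert,
    Finset.prod_insert, Finset.prod_singleton]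
  · ring
  · simp [hfe.symm]
  · simp [hce, hfc.symm]
  · simp [hac, hae, hfa.symm]

theorem z3_sign_mul {a c : ZMod 3} (ha : a = 1 ∨ a = -1) (hc : c = 1 ∨ c = -1) :
    a * c = 1 ∨ a * c = -1 := by
  rcases ha with rfl | rfl <;> rcases hc with rfl | rfl <;> decide

/-- `SgnHas T i0 i1 i2 i3 a0 a1 a2 a3`: some vector in `T` has the values `a0 a1 a2 a3` at the
points `i0 i1 i2 i3`. -/
def SgnHas (T : (Fin 4 → ZMod 3) → Prop) (i0 i1 i2 i3 : Fin 4) (a0 a1 a2 a3 : ZMod 3) : Prop :=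
  ∃ u, T u ∧ u i0 = a0 ∧ u i1 = a1 ∧ u i2 = a2 ∧ u i3 = a3

theorem SgnHas.congr {T : (Fin 4 → ZMod 3) → Prop} {i0 i1 i2 i3 : Fin 4}
    {a0 a1 a2 a3 c0 c1 c2 c3 : ZMod 3} (h : SgnHas T i0 i1 i2 i3 a0 a1 a2 a3)
    (e0 : a0 = c0) (e1 : a1 = c1) (e2 : a2 = c2) (e3 : a3 = c3) :
    SgnHas T i0 i1 i2 i3 c0 c1 c2 c3 := by
  subst e0 e1 e2 e3
  exact h

theorem triple_pairs {T : (Fin 4 → ZMod 3) → Prop} {i0 i1 i2 i3 : Fin 4} (a0 a1 a2 a3 : ZMod 3)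
    (s0 : a0 = 1 ∨ a0 = -1) (s1 : a1 = 1 ∨ a1 = -1) (s2 : a2 = 1 ∨ a2 = -1)
    (s3 : a3 = 1 ∨ a3 = -1) (hne : ¬ (a0 = a1 ∧ a1 = a2))
    (A : SgnHas T i0 i1 i2 i3 (a0 * a1) (a1 * a2) (a2 * a0) (a3 * a3))
    (B : SgnHas T i0 i1 i2 i3 (a1 * a2) (a2 * a0) (a0 * a1) (a3 * a3))
    (C : SgnHas T i0 i1 i2 i3 (a2 * a0) (a0 * a1) (a1 * a2) (a3 * a3)) :
    SgnHas T i0 i1 i2 i3 1 (-1) (-1) 1 ∧ SgnHas T i0 i1 i2 i3 (-1) (-1) 1 1 ∧
      SgnHas T i0 i1 i2 i3 (-1) 1 (-1) 1 := by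
  rcases s0 with rfl | rfl <;> rcases s1 with rfl | rfl <;> rcases s2 with rfl | rfl <;>
  rcases s3 with rfl | rfl <;>
  first
  | exact absurd ⟨rfl, rfl⟩ hne
  | (refine ⟨?_, ?_, ?_⟩ <;>
      first
      | exact A.congr (by decide) (by decide) (by decide) (by decide)
      | exact B.congr (by decide) (by decide) (by decide) (by decide)
      | exact C.congr (by decide) (by decide) (by decide) (by decide))

theorem key4 (T : (Fin 4 → ZMod 3) → Prop) (i0 i1 i2 i3 : Fin 4)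
    (hex : ∀ j, j = i0 ∨ j = i1 ∨ j = i2 ∨ j = i3)
    (hmul : ∀ u v, T u → T v → T (fun i => u i * v i))
    (hrot : ∀ u, T u → ∃ u', T u' ∧ u' i0 = u i1 ∧ u' i1 = u i2 ∧ u' i2 = u i0 ∧ u' i3 = u i3)
    (hsign : ∀ u, T u → ∀ i, u i = 1 ∨ u i = -1)
    (hev : ∀ u, T u → u i0 * u i1 * u i2 * u i3 = 1)
    (hv : ∃ v, T v ∧ ¬ (v i0 = v i1 ∧ v i1 = v i2))
    (hq : (∃ u, T u ∧ u i0 = -1) → ∃ q, T q ∧ q i3 = -1)
    (d : Fin 4 → ZMod 3) (hd : ∀ i, d i = 1 ∨ d i = -1)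
    (hdp : d i0 * d i1 * d i2 * d i3 = 1) : T d := by
  have Hmul : ∀ {a0 a1 a2 a3 c0 c1 c2 c3 : ZMod 3}, SgnHas T i0 i1 i2 i3 a0 a1 a2 a3 →
      SgnHas T i0 i1 i2 i3 c0 c1 c2 c3 →
      SgnHas T i0 i1 i2 i3 (a0 * c0) (a1 * c1) (a2 * c2) (a3 * c3) := by
    rintro a0 a1 a2 a3 c0 c1 c2 c3 ⟨u, hu, rfl, rfl, rfl, rfl⟩ ⟨v, hv, rfl, rfl, rfl, rfl⟩
    exact ⟨_, hmul u v hu hv, rfl, rfl, rfl, rfl⟩
  have Hrot : ∀ {a0 a1 a2 a3 : ZMod 3}, SgnHas T i0 i1 i2 i3 a0 a1 a2 a3 →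
      SgnHas T i0 i1 i2 i3 a1 a2 a0 a3 := by
    rintro a0 a1 a2 a3 ⟨u, hu, rfl, rfl, rfl, rfl⟩
    obtain ⟨u', hu', e0, e1, e2, e3⟩ := hrot u hu
    exact ⟨u', hu', e0, e1, e2, e3⟩
  -- the three pairs inside the triple
  obtain ⟨v, hTv, hvne⟩ := hv
  have hvv : SgnHas T i0 i1 i2 i3 (v i0) (v i1) (v i2) (v i3) := ⟨v, hTv, rfl, rfl, rfl, rfl⟩
  have hA := Hmul hvv (Hrot hvv)
  have P := triple_pairs (v i0) (v i1) (v i2) (v i3) (hsign v hTv i0) (hsign v hTv i1)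
    (hsign v hTv i2) (hsign v hTv i3) hvne hA (Hrot hA) (Hrot (Hrot hA))
  -- even vectors with last coordinate 1
  have E1 : ∀ a0 a1 a2 : ZMod 3, (a0 = 1 ∨ a0 = -1) → (a1 = 1 ∨ a1 = -1) → (a2 = 1 ∨ a2 = -1) →
      a0 * a1 * a2 = 1 → SgnHas T i0 i1 i2 i3 a0 a1 a2 1 := by
    intro a0 a1 a2 s0 s1 s2 hp
    rcases s0 with rfl | rfl <;> rcases s1 with rfl | rfl <;> rcases s2 with rfl | rfl <;>
    first
    | exact absurd hp (by decide)
    | exact P.1.congr (by decide) (by decide) (by decide) (by decide)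
    | exact P.2.1.congr (by decide) (by decide) (by decide) (by decide)
    | exact P.2.2.congr (by decide) (by decide) (by decide) (by decide)
    | exact (Hmul P.1 P.1).congr (by decide) (by decide) (by decide) (by decide)
  have hfin : ∀ a3 : ZMod 3, SgnHas T i0 i1 i2 i3 (d i0) (d i1) (d i2) a3 → d i3 = a3 → T d := by
    rintro a3 ⟨u, hTu, e0, e1, e2, e3⟩ h3
    have hud : u = d := by
      funext j
      rcases hex j with rfl | rfl | rfl | rfl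
      · exact e0
      · exact e1
      · exact e2
      · exact e3.trans h3.symm
    rw [← hud]
    exact hTu
  rcases hd i3 with h3 | h3
  · rw [h3, mul_one] at hdp
    exact hfin 1 (E1 _ _ _ (hd i0) (hd i1) (hd i2) hdp) h3
  · rw [h3] at hdp
    have hdp' : d i0 * d i1 * d i2 = -1 := by linear_combination (-1 : ZMod 3) * hdp
    obtain ⟨q, hTq, hq3⟩ := hq (by
      obtain ⟨u, hu, e0, -, -, -⟩ := P.2.1
      exact ⟨u, hu, e0⟩)
    have hqq : SgnHas T i0 i1 i2 i3 (q i0) (q i1) (q i2) (-1) := ⟨q, hTq, rfl, rfl, rfl, hq3⟩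
    have hqp := hev q hTq
    rw [hq3] at hqp
    have hqp' : q i0 * q i1 * q i2 = -1 := by linear_combination (-1 : ZMod 3) * hqp
    have s0 := hsign q hTq i0
    have s1 := hsign q hTq i1
    have s2 := hsign q hTq i2
    have h1 := E1 (d i0 * q i0) (d i1 * q i1) (d i2 * q i2) (z3_sign_mul (hd i0) s0)
      (z3_sign_mul (hd i1) s1) (z3_sign_mul (hd i2) s2) (by
        have e : d i0 * q i0 * (d i1 * q i1) * (d i2 * q i2)
            = (d i0 * d i1 * d i2) * (q i0 * q i1 * q i2) := by ring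
        rw [e, hdp', hqp']
        decide)
    refine hfin (-1) ((Hmul h1 hqq).congr ?_ ?_ ?_ (by decide)) h3
    · rw [mul_assoc, z3_sq_of_sign s0, mul_one]
    · rw [mul_assoc, z3_sq_of_sign s1, mul_one]
    · rw [mul_assoc, z3_sq_of_sign s2, mul_one]

/-- [MON-4S] -/
theorem pkgMon4S : PkgMon4S.{u} := by
  intro G _ _ R N b σ ε hsp hNR hNn hNσ hmove hcyc htrans hprod d hd
  obtain ⟨i0, i1, i2, h01, h12, h02, c0, c1, c2, cfix⟩ := hcyc
  obtain ⟨i3, h30, h31, h32, hex⟩ := fin4_fourth i0 i1 i2 h01 h12 h02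
  have c3 : σ b i3 = i3 := cfix i3 h30 h31 h32
  have hP4 : ∀ u : Fin 4 → ZMod 3, ∏ i, u i = u i0 * u i1 * u i2 * u i3 :=
    prod4 i0 i1 i2 i3 h01 h12 h02 h30 h31 h32
  -- the set of sign vectors realized by `N`
  have hperm : ∀ (g : G) (u : Fin 4 → ZMod 3), (∃ x ∈ N, ∀ i, ε x i = u i) →
      ∃ x ∈ N, ∀ i, ε x i = u (σ g i) := by
    rintro g u ⟨x, hx, hxu⟩
    refine ⟨g⁻¹ * x * g, ?_, fun i => ?_⟩
    · have := hNn.conj_mem x hx g⁻¹
      simpa using this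
    · rw [sp_conj hsp g x (hNσ x hx) i, hxu]
  refine key4 (fun u => ∃ x ∈ N, ∀ i, ε x i = u i) i0 i1 i2 i3 hex ?_ ?_ ?_ ?_ ?_ ?_ d hd.1 ?_
  · -- products
    rintro u v ⟨x, hx, hxu⟩ ⟨y, hy, hyv⟩
    refine ⟨x * y, N.mul_mem hx hy, fun i => ?_⟩
    rw [hsp.2.1 x y i, hNσ y hy, hyv, Equiv.Perm.coe_one, id_eq, hxu, mul_comm]
  · -- rotation
    intro u hu
    refine ⟨fun i => u (σ b i), hperm b u hu, ?_, ?_, ?_, ?_⟩
    · show u (σ b i0) = u i1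
      rw [c0]
    · show u (σ b i1) = u i2
      rw [c1]
    · show u (σ b i2) = u i0
      rw [c2]
    · show u (σ b i3) = u i3
      rw [c3]
  · -- signs
    rintro u ⟨x, hx, hxu⟩ i
    rw [← hxu i]
    exact hsp.1 x i
  · -- evenness
    rintro u ⟨x, hx, hxu⟩
    rw [← hP4 u, ← hprod x (hNR hx)]
    exact Finset.prod_congr rfl (fun i _ => (hxu i).symm)
  · -- a vector moved by `b`
    obtain ⟨x, hx, hbx⟩ := hmove
    refine ⟨ε x, ⟨x, hx, fun _ => rfl⟩, ?_⟩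
    rintro ⟨e01, e12⟩
    apply hbx
    have hfix : ∀ i, ε x (σ b i) = ε x i := by
      intro i
      rcases hex i with rfl | rfl | rfl | rfl
      · rw [c0, e01]
      · rw [c1, e12]
      · rw [c2, e01, e12]
      · rw [c3]
    have hconj : b⁻¹ * x * b = x := by
      apply sp_ext hsp
      · rw [sp_conj_sigma b x (hNσ x hx), hNσ x hx]
      · intro i
        rw [sp_conj hsp b x (hNσ x hx) i, hfix i]
    calc b * x = b * (b⁻¹ * x * b) := by rw [hconj]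
      _ = x * b := by group
  · -- a vector with `-1` at `i3`
    rintro ⟨u, hu, hu0⟩
    obtain ⟨r, hr, hr30⟩ := htrans i3 i0
    refine ⟨fun i => u (σ r i), hperm r u hu, ?_⟩
    show u (σ r i3) = -1
    rw [hr30, hu0]
  · rw [← hP4 d]
    exact hd.2

end Cfsg.Agent.Lib.Helper73.S4415
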